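import Mathlib

/-!
# Alternating actions on subsets
-/

set_option autoImplicit false
set_option linter.unusedSectionVars false
set_option linter.style.haveILetI false

namespace Cfsg.Agent.Lib.Perm.Knapp

open Subgroup Equiv

variable {G Ω : Type*} [Group G] [MulAction G Ω]

/-- `Q` preserves `Λ`. -/
def Pres (Q : Subgroup G) (Λ : Set Ω) : Prop := ∀ q ∈ Q, ∀ x ∈ Λ, q • x ∈ Λ

/-- `Q` induces all three-cycles on `Λ`. -/
def Form3 (Q : Subgroup G) (Λ : Set Ω) : Prop :=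
  ∀ x ∈ Λ, ∀ y ∈ Λ, ∀ z ∈ Λ, x ≠ y → y ≠ z → x ≠ z →
    ∃ q ∈ Q, q • x = y ∧ q • y = z ∧ q • z = x ∧ ∀ w ∈ Λ, w ≠ x → w ≠ y → w ≠ z → q • w = w

/-- The action of a subgroup on an invariant set. -/
def act (Q : Subgroup G) (Λ : Set Ω) (hp : Pres Q Λ) : ↥Q →* Perm ↥Λ where
  toFun q :=
    { toFun := fun x => ⟨(q : G) • (x : Ω), hp q q.2 x x.2⟩
      invFun := fun x => ⟨(q : G)⁻¹ • (x : Ω), hp _ (inv_mem q.2) x x.2⟩
      left_inv := fun x => Subtype.ext (inv_smul_smul (q : G) (x : Ω))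
      right_inv := fun x => Subtype.ext (smul_inv_smul (q : G) (x : Ω)) }
  map_one' := by
    ext x
    simp
  map_mul' := by
    intro a b
    ext x
    simp [mul_smul]

@[simp] theorem act_apply (Q : Subgroup G) (Λ : Set Ω) (hp : Pres Q Λ) (q : ↥Q) (x : ↥Λ) :
    ((act Q Λ hp q x : ↥Λ) : Ω) = (q : G) • (x : Ω) := rfl

theorem Form3.mono {Q Q' : Subgroup G} {Λ : Set Ω} (h : Form3 Q Λ) (hQ : Q ≤ Q') : Form3 Q' Λ := by
  intro x hx y hy z hz h1 h2 h3
  obtain ⟨q, hq, h4⟩ := h x hx y hy z hz h1 h2 h3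
  exact ⟨q, hQ hq, h4⟩

theorem Pres.mono {Q Q' : Subgroup G} {Λ : Set Ω} (h : Pres Q' Λ) (hQ : Q ≤ Q') : Pres Q Λ :=
  fun q hq x hx => h q (hQ hq) x hx

/-- Point stabilizers. -/
theorem Form3.stab {Q : Subgroup G} {Λ : Set Ω} (h : Form3 Q Λ) {a : Ω} (ha : a ∈ Λ) :
    Form3 (Q ⊓ MulAction.stabilizer G a) (Λ \ {a}) := by
  intro x hx y hy z hz h1 h2 h3
  obtain ⟨q, hq, h4, h5, h6, h7⟩ := h x hx.1 y hy.1 z hz.1 h1 h2 h3
  refine ⟨q, mem_inf.mpr ⟨hq, ?_⟩, h4, h5, h6, fun w hw => h7 w hw.1⟩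
  rw [MulAction.mem_stabilizer_iff]
  exact h7 a ha (fun e => hx.2 (e ▸ rfl)) (fun e => hy.2 (e ▸ rfl)) (fun e => hz.2 (e ▸ rfl))

theorem Pres.stab {Q : Subgroup G} {Λ : Set Ω} (h : Pres Q Λ) (a : Ω) :
    Pres (Q ⊓ MulAction.stabilizer G a) (Λ \ {a}) := by
  intro q hq x hx
  obtain ⟨hq1, hq2⟩ := mem_inf.mp hq
  refine ⟨h q hq1 x hx.1, ?_⟩
  intro e
  apply hx.2
  have e' : q • x = q • a := by
    rw [MulAction.mem_stabilizer_iff.mp hq2]
    exact e
  exact MulAction.injective q e'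

section Finite

variable [Finite G] [Finite Ω]

theorem exists_three {α : Type*} [Fintype α] [DecidableEq α] {σ : Perm α} (hσ : σ.IsThreeCycle) :
    ∃ x y z : α, x ≠ y ∧ y ≠ z ∧ x ≠ z ∧ σ x = y ∧ σ y = z ∧ σ z = x ∧
      ∀ w, w ≠ x → w ≠ y → w ≠ z → σ w = w := by
  have hne : σ ≠ 1 := hσ.isCycle.ne_one
  obtain ⟨x, hx⟩ : ∃ x, σ x ≠ x := by
    by_contra hc
    push Not at hc
    exact hne (Equiv.ext hc)
  have h3 : σ ^ 3 = 1 := by
    rw [← hσ.orderOf]
    exact pow_orderOf_eq_one σ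
  have h3x : σ (σ (σ x)) = x := by
    have := congrArg (fun f : Perm α => f x) h3
    simpa [pow_succ] using this
  have hy : σ (σ x) ≠ σ x := fun h => hx (σ.injective h)
  have hz : σ (σ x) ≠ x := by
    intro h
    rw [h] at h3x
    exact hx h3x
  refine ⟨x, σ x, σ (σ x), hx.symm, hy.symm, hz.symm, rfl, rfl, h3x, ?_⟩
  intro w h1 h2 h4
  by_contra hw
  have hs : ({x, σ x, σ (σ x), w} : Finset α) ⊆ σ.support := by
    intro t ht
    simp only [Finset.mem_insert, Finset.mem_singleton] at ht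
    rw [Equiv.Perm.mem_support]
    rcases ht with rfl | rfl | rfl | rfl
    · exact hx
    · exact hy
    · rw [h3x]
      exact hz.symm
    · exact hw
  have hc := Finset.card_le_card hs
  rw [hσ.card_support] at hc
  have : ({x, σ x, σ (σ x), w} : Finset α).card = 4 := by
    rw [Finset.card_insert_of_notMem, Finset.card_insert_of_notMem, Finset.card_insert_of_notMem,
      Finset.card_singleton]
    · simpa using hz.symm ∘ (fun h => h) |> fun _ => h4.symm
    · simp only [Finset.mem_insert, Finset.mem_singleton, not_or]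
      exact ⟨hy.symm, h2.symm⟩
    · simp only [Finset.mem_insert, Finset.mem_singleton, not_or]
      exact ⟨hx.symm, hz.symm, h1.symm⟩
  omega

theorem alt_le_range {Q : Subgroup G} {Λ : Set Ω} [Fintype ↥Λ] [DecidableEq ↥Λ] (hp : Pres Q Λ)
    (h : Form3 Q Λ) : alternatingGroup ↥Λ ≤ (act Q Λ hp).range := by
  rw [← Equiv.Perm.closure_three_cycles_eq_alternating, closure_le]
  intro σ hσ
  obtain ⟨x, y, z, h1, h2, h3, h4, h5, h6, h7⟩ := exists_three hσ
  obtain ⟨q, hq, h8, h9, h10, h11⟩ := h x x.2 y y.2 z z.2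
    (fun e => h1 (Subtype.ext e)) (fun e => h2 (Subtype.ext e)) (fun e => h3 (Subtype.ext e))
  refine ⟨⟨q, hq⟩, ?_⟩
  ext w
  rw [act_apply]
  by_cases hw1 : w = x
  · subst hw1
    rw [h4]
    exact h8
  by_cases hw2 : w = y
  · subst hw2
    rw [h5]
    exact h9
  by_cases hw3 : w = z
  · subst hw3
    rw [h6]
    exact h10
  rw [h7 w hw1 hw2 hw3]
  exact h11 w w.2 (fun e => hw1 (Subtype.ext e)) (fun e => hw2 (Subtype.ext e))
    (fun e => hw3 (Subtype.ext e))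

theorem form3_of_alt_le_range {Q : Subgroup G} {Λ : Set Ω} [Fintype ↥Λ] [DecidableEq ↥Λ]
    (hp : Pres Q Λ) (h : alternatingGroup ↥Λ ≤ (act Q Λ hp).range) : Form3 Q Λ := by
  intro x hx y hy z hz h1 h2 h3
  let X : ↥Λ := ⟨x, hx⟩
  let Y : ↥Λ := ⟨y, hy⟩
  let Z : ↥Λ := ⟨z, hz⟩
  have h1' : X ≠ Y := fun e => h1 (congrArg Subtype.val e)
  have h2' : Y ≠ Z := fun e => h2 (congrArg Subtype.val e)
  have h3' : X ≠ Z := fun e => h3 (congrArg Subtype.val e)
  let σ : Perm ↥Λ := swap X Y * swap Y Z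
  have hσ : σ ∈ alternatingGroup ↥Λ := by
    rw [Equiv.Perm.mem_alternatingGroup]
    simp [σ, Equiv.Perm.sign_swap h1', Equiv.Perm.sign_swap h2']
  obtain ⟨q, hq⟩ := h hσ
  have hq' : ∀ w : ↥Λ, (q : G) • (w : Ω) = ((σ w : ↥Λ) : Ω) := by
    intro w
    rw [← hq, act_apply]
  refine ⟨q, q.2, ?_, ?_, ?_, ?_⟩
  · have := hq' X
    rw [this]
    simp only [σ, Perm.mul_apply]
    rw [swap_apply_of_ne_of_ne h1' h3', swap_apply_left]
  · have := hq' Y
    rw [this]
    simp only [σ, Perm.mul_apply]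
    rw [swap_apply_left, swap_apply_of_ne_of_ne h3'.symm h2'.symm]
  · have := hq' Z
    rw [this]
    simp only [σ, Perm.mul_apply]
    rw [swap_apply_right, swap_apply_right]
  · intro w hw hw1 hw2 hw3
    have := hq' ⟨w, hw⟩
    rw [show (w : Ω) = ((⟨w, hw⟩ : ↥Λ) : Ω) from rfl, this]
    simp only [σ, Perm.mul_apply]
    have e1 : (⟨w, hw⟩ : ↥Λ) ≠ Y := fun e => hw2 (congrArg Subtype.val e)
    have e2 : (⟨w, hw⟩ : ↥Λ) ≠ Z := fun e => hw3 (congrArg Subtype.val e)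
    have e3 : (⟨w, hw⟩ : ↥Λ) ≠ X := fun e => hw1 (congrArg Subtype.val e)
    rw [swap_apply_of_ne_of_ne e1 e2, swap_apply_of_ne_of_ne e3 e1]

/-- The core dichotomy in a symmetric group. -/
theorem perm_dich {α : Type*} [Fintype α] [DecidableEq α] (h5 : 5 ≤ Fintype.card α)
    (N : Subgroup (Perm α)) (hn : alternatingGroup α ≤ normalizer (N : Set (Perm α))) :
    N = ⊥ ∨ alternatingGroup α ≤ N := by
  have hs : IsSimpleGroup (alternatingGroup α) :=
    alternatingGroup.isSimpleGroup (by rwa [Nat.card_eq_fintype_card])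
  have hnorm : (N.subgroupOf (alternatingGroup α)).Normal :=
    Subgroup.normal_subgroupOf_of_le_normalizer hn
  rcases hs.eq_bot_or_eq_top_of_normal _ hnorm with h | h
  · left
    rw [eq_bot_iff]
    intro n hnN
    rw [Subgroup.mem_bot]
    by_contra hne
    obtain ⟨x, hx⟩ : ∃ x, n x ≠ x := by
      by_contra hc
      push Not at hc
      exact hne (Equiv.ext hc)
    -- two further points
    obtain ⟨u, hu⟩ : ∃ u, u ≠ x ∧ u ≠ n x := by
      by_contra hc
      push Not at hc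
      have : (Finset.univ : Finset α) ⊆ {x, n x} := by
        intro t _
        by_cases ht : t = x
        · simp [ht]
        · simp [hc t ht]
      have := Finset.card_le_card this
      have h2 : ({x, n x} : Finset α).card ≤ 2 := Finset.card_le_two
      rw [Finset.card_univ] at this
      omega
    obtain ⟨v, hv⟩ : ∃ v, v ≠ x ∧ v ≠ n x ∧ v ≠ u := by
      by_contra hc
      push Not at hc
      have : (Finset.univ : Finset α) ⊆ {x, n x, u} := by
        intro t _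
        by_cases ht : t = x
        · simp [ht]
        by_cases ht2 : t = n x
        · simp [ht2]
        · simp [hc t ht ht2]
      have := Finset.card_le_card this
      have h2 : ({x, n x, u} : Finset α).card ≤ 3 := Finset.card_le_three
      rw [Finset.card_univ] at this
      omega
    let c : Perm α := swap x u * swap u v
    have hc : c ∈ alternatingGroup α := by
      rw [Equiv.Perm.mem_alternatingGroup]
      have h1 : x ≠ u := hu.1.symm
      have h2 : u ≠ v := hv.2.2.symm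
      simp [c, Equiv.Perm.sign_swap h1, Equiv.Perm.sign_swap h2]
    have hcom : n * c * n⁻¹ * c⁻¹ = 1 := by
      have h1 : n * c * n⁻¹ * c⁻¹ ∈ N := by
        have e : n * c * n⁻¹ * c⁻¹ = n * (c * n⁻¹ * c⁻¹) := by group
        rw [e]
        exact mul_mem hnN ((mem_normalizer_iff.mp (hn hc) _).mp (inv_mem hnN))
      have h2 : n * c * n⁻¹ * c⁻¹ ∈ alternatingGroup α := by
        rw [Equiv.Perm.mem_alternatingGroup]
        have hs : Perm.sign c = 1 := Equiv.Perm.mem_alternatingGroup.mp hc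
        simp [hs]
      have h3 : (⟨_, h2⟩ : alternatingGroup α) ∈ N.subgroupOf (alternatingGroup α) := h1
      rw [h, Subgroup.mem_bot] at h3
      exact congrArg Subtype.val h3
    have hcomm : n * c = c * n := by
      have := hcom
      rw [mul_inv_eq_one, mul_inv_eq_iff_eq_mul] at this
      exact this
    have e := congrArg (fun f : Perm α => f x) hcomm
    simp only [Perm.mul_apply, c] at e
    rw [swap_apply_of_ne_of_ne hu.1.symm hv.1.symm, swap_apply_left,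
      swap_apply_of_ne_of_ne hu.2.symm hv.2.1.symm, swap_apply_of_ne_of_ne hx hu.2.symm] at e
    exact hu.1 (n.injective e)
  · right
    intro x hx
    have : (⟨x, hx⟩ : alternatingGroup α) ∈ N.subgroupOf (alternatingGroup α) := by
      rw [h]
      trivial
    exact this

/-- The dichotomy for subgroups. -/
theorem dich {Q N : Subgroup G} {Λ : Set Ω} (hp : Pres Q Λ) (hF : Form3 Q Λ)
    (h5 : 5 ≤ Nat.card ↥Λ) (hNQ : N ≤ Q) (hn : Q ≤ normalizer (N : Set G)) :
    (∀ n ∈ N, ∀ x ∈ Λ, n • x = x) ∨ Form3 N Λ := by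
  classical
  haveI := Fintype.ofFinite ↥Λ
  let f := act Q Λ hp
  let N' : Subgroup (Perm ↥Λ) := (N.subgroupOf Q).map f
  have hN' : alternatingGroup ↥Λ ≤ normalizer (N' : Set (Perm ↥Λ)) := by
    intro σ hσ
    obtain ⟨q, rfl⟩ := alt_le_range hp hF hσ
    rw [mem_normalizer_iff]
    have hnq : ∀ n : G, n ∈ N ↔ (q : G) * n * (q : G)⁻¹ ∈ N :=
      fun n => mem_normalizer_iff.mp (hn q.2) n
    intro τ
    constructor
    · rintro ⟨n, hn', rfl⟩
      have h1 : (n : G) ∈ N := hn'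
      refine ⟨q * n * q⁻¹, ?_, by rw [map_mul, map_mul, map_inv]⟩
      exact (hnq _).mp h1
    · rintro ⟨n, hn', he⟩
      have h1 : (n : G) ∈ N := hn'
      refine ⟨q⁻¹ * n * q, ?_, ?_⟩
      · show ((q : G)⁻¹ * (n : G) * (q : G)) ∈ N
        rw [hnq]
        simpa [mul_assoc] using h1
      · have he' : f n = f q * τ * (f q)⁻¹ := he
        have : τ = (f q)⁻¹ * (f n) * (f q) := by
          rw [he']
          group
        rw [this, map_mul, map_mul, map_inv]
  have h5' : 5 ≤ Fintype.card ↥Λ := by rwa [← Nat.card_eq_fintype_card]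
  rcases perm_dich h5' N' hN' with h | h
  · left
    intro n hn' x hx
    have h1 : f ⟨n, hNQ hn'⟩ ∈ N' := ⟨⟨n, hNQ hn'⟩, hn', rfl⟩
    rw [h, Subgroup.mem_bot] at h1
    have h2 := congrArg (fun σ : Perm ↥Λ => ((σ ⟨x, hx⟩ : ↥Λ) : Ω)) h1
    simpa [f] using h2
  · right
    intro x hx y hy z hz h1 h2 h3
    have hp' : Pres N Λ := hp.mono hNQ
    have hr : alternatingGroup ↥Λ ≤ (act N Λ hp').range := by
      intro σ hσ
      obtain ⟨n, hn', he⟩ := h hσ
      refine ⟨⟨n, hn'⟩, ?_⟩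
      rw [← he]
      ext w
      rfl
    exact form3_of_alt_le_range hp' hr x hx y hy z hz h1 h2 h3

/-- `Form3` gives transitivity. -/
theorem Form3.trans {Q : Subgroup G} {Λ : Set Ω} (h : Form3 Q Λ) (h3 : 3 ≤ Nat.card ↥Λ)
    {x y : Ω} (hx : x ∈ Λ) (hy : y ∈ Λ) : ∃ q ∈ Q, q • x = y := by
  classical
  by_cases hxy : x = y
  · exact ⟨1, one_mem _, by simp [hxy]⟩
  obtain ⟨z, hz, hzx, hzy⟩ : ∃ z ∈ Λ, z ≠ x ∧ z ≠ y := by
    by_contra hc
    push Not at hc
    haveI := Fintype.ofFinite ↥Λ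
    have hsub : (Finset.univ : Finset ↥Λ) ⊆ {⟨x, hx⟩, ⟨y, hy⟩} := by
      intro t _
      by_cases ht : (t : Ω) = x
      · simp [Subtype.ext_iff, ht]
      · simp [Subtype.ext_iff, hc t t.2 ht]
    have h1 := Finset.card_le_card hsub
    have h2 : ({⟨x, hx⟩, ⟨y, hy⟩} : Finset ↥Λ).card ≤ 2 := Finset.card_le_two
    rw [Finset.card_univ, ← Nat.card_eq_fintype_card] at h1
    omega
  obtain ⟨q, hq, h1, -⟩ := h x hx y hy z hz hxy hzy.symm hzx.symm
  exact ⟨q, hq, h1⟩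

/-- The kernel formula. -/
theorem card_eq_mul {Q K₀ : Subgroup G} {Λ : Set Ω} (hp : Pres Q Λ)
    (hK : ∀ q : G, q ∈ K₀ ↔ q ∈ Q ∧ ∀ x ∈ Λ, q • x = x) :
    Nat.card Q = Nat.card K₀ * Nat.card (act Q Λ hp).range := by
  have h1 := (act Q Λ hp).ker.card_mul_index
  rw [Subgroup.index_ker] at h1
  rw [← h1]
  congr 1
  apply Nat.card_congr
  refine ⟨fun x => ⟨((x : ↥Q) : G), ?_⟩, fun x => ⟨⟨(x : G), ((hK _).mp x.2).1⟩, ?_⟩, ?_, ?_⟩
  · refine (hK _).mpr ⟨(x : ↥Q).2, ?_⟩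
    intro y hy
    have h2 : act Q Λ hp (x : ↥Q) = 1 := x.2
    have h3 := congrArg (fun σ : Perm ↥Λ => ((σ ⟨y, hy⟩ : ↥Λ) : Ω)) h2
    simpa using h3
  · rw [MonoidHom.mem_ker]
    ext y
    simpa using ((hK _).mp x.2).2 y y.2
  · intro x
    rfl
  · intro x
    rfl

theorem card_perm_set (Λ : Set Ω) : Nat.card (Perm ↥Λ) = (Nat.card ↥Λ).factorial := by
  classical
  haveI := Fintype.ofFinite ↥Λ
  rw [Nat.card_eq_fintype_card, Nat.card_eq_fintype_card, Fintype.card_perm]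

theorem card_alt_set (Λ : Set Ω) [Fintype ↥Λ] [DecidableEq ↥Λ] (h2 : 2 ≤ Nat.card ↥Λ) :
    Nat.card (alternatingGroup ↥Λ) = (Nat.card ↥Λ).factorial / 2 := by
  haveI : Nontrivial ↥Λ := Finite.one_lt_card_iff_nontrivial.mp h2
  exact nat_card_alternatingGroup

/-- Upper bound. -/
theorem card_le_mul {Q K₀ : Subgroup G} {Λ : Set Ω} (hp : Pres Q Λ)
    (hK : ∀ q : G, q ∈ K₀ ↔ q ∈ Q ∧ ∀ x ∈ Λ, q • x = x) :
    Nat.card Q ≤ Nat.card K₀ * (Nat.card ↥Λ).factorial := by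
  rw [card_eq_mul hp hK, ← card_perm_set]
  exact Nat.mul_le_mul_left _ (Subgroup.card_le_card_group _)

/-- Lower bound. -/
theorem le_card_mul {Q K₀ : Subgroup G} {Λ : Set Ω} (hp : Pres Q Λ) (hF : Form3 Q Λ)
    (hK : ∀ q : G, q ∈ K₀ ↔ q ∈ Q ∧ ∀ x ∈ Λ, q • x = x) :
    Nat.card K₀ * ((Nat.card ↥Λ).factorial / 2) ≤ Nat.card Q := by
  classical
  haveI := Fintype.ofFinite ↥Λ
  by_cases h2 : 2 ≤ Nat.card ↥Λ
  · rw [card_eq_mul hp hK, ← card_alt_set Λ h2]
    exact Nat.mul_le_mul_left _ (Subgroup.card_le_of_le (alt_le_range hp hF))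
  · have h3 : (Nat.card ↥Λ).factorial / 2 = 0 := by
      have : Nat.card ↥Λ = 0 ∨ Nat.card ↥Λ = 1 := by omega
      rcases this with h | h <;> rw [h] <;> rfl
    rw [h3, mul_zero]
    exact Nat.zero_le _

/-- A big image contains the alternating group. -/
theorem form3_of_card {Q K₀ : Subgroup G} {Λ : Set Ω} (hp : Pres Q Λ) (h2' : 2 ≤ Nat.card ↥Λ)
    (hK : ∀ q : G, q ∈ K₀ ↔ q ∈ Q ∧ ∀ x ∈ Λ, q • x = x)
    (hb : Nat.card K₀ * ((Nat.card ↥Λ).factorial / 2) ≤ Nat.card Q) : Form3 Q Λ := by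
  classical
  haveI := Fintype.ofFinite ↥Λ
  apply form3_of_alt_le_range hp
  apply Equiv.Perm.alternatingGroup_le_of_index_le_two
  have h1 := (act Q Λ hp).range.card_mul_index
  rw [card_perm_set] at h1
  have h2 := card_eq_mul hp hK
  have hpos : 0 < Nat.card K₀ := Nat.card_pos
  have h3 : (Nat.card ↥Λ).factorial / 2 ≤ Nat.card (act Q Λ hp).range := by
    rw [h2] at hb
    exact Nat.le_of_mul_le_mul_left hb hpos
  have hr : 0 < Nat.card (act Q Λ hp).range := Nat.card_pos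
  have h4 : 2 ∣ (Nat.card ↥Λ).factorial := Nat.dvd_factorial (by norm_num) h2'
  by_contra hc
  push Not at hc
  have h5 : Nat.card (act Q Λ hp).range * 3 ≤ (Nat.card ↥Λ).factorial := by
    rw [← h1]
    exact Nat.mul_le_mul_left _ hc
  have hf : 0 < (Nat.card ↥Λ).factorial := Nat.factorial_pos _
  omega

theorem card_set_diff (Λ : Set Ω) {a : Ω} (ha : a ∈ Λ) :
    Nat.card ↥(Λ \ {a}) = Nat.card ↥Λ - 1 := by
  classical
  haveI := Fintype.ofFinite Ω
  have h : (Nat.card ↥(Λ \ {a}) : ℕ) + 1 = Nat.card ↥Λ := by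
    rw [Nat.card_coe_set_eq, Nat.card_coe_set_eq]
    have := Set.ncard_diff_singleton_add_one ha (Set.toFinite Λ)
    exact this
  omega

end Finite

end Cfsg.Agent.Lib.Perm.Knapp
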