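import Mathlib
import Cfsg.Agent.Lib.Perm.Knapp.Form

/-!
# Abstract group isomorphisms for the Knapp theorem
-/

set_option autoImplicit false
set_option linter.unusedSectionVars false
set_option linter.style.haveILetI false

namespace Cfsg.Agent.Lib.Perm.Knapp

open Subgroup Equiv

/-- A subgroup of `Sym` containing `Alt` is one of the two. -/
theorem alt_eq_or_top {α : Type*} [Fintype α] [DecidableEq α] {P : Subgroup (Perm α)}
    (h : alternatingGroup α ≤ P) : P = alternatingGroup α ∨ P = ⊤ := by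
  by_cases hP : P ≤ alternatingGroup α
  · exact Or.inl (le_antisymm hP h)
  · right
    obtain ⟨p, hp, hp1⟩ := SetLike.not_le_iff_exists.mp hP
    rw [eq_top_iff]
    intro σ _
    by_cases hσ : σ ∈ alternatingGroup α
    · exact h hσ
    · have hs : ∀ τ : Perm α, τ ∉ alternatingGroup α → Perm.sign τ = -1 := by
        intro τ hτ
        rw [Equiv.Perm.mem_alternatingGroup] at hτ
        exact (Int.units_eq_one_or _).resolve_left hτ
      have : σ * p⁻¹ ∈ alternatingGroup α := by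
        rw [Equiv.Perm.mem_alternatingGroup, map_mul, map_inv, hs σ hσ, hs p hp1]
        rfl
      have h2 := mul_mem (h this) hp
      simpa using h2

/-- Groups embedding in `Sym` containing `Alt`. -/
theorem iso_of_range {P : Type*} [Group P] {α : Type*} [Fintype α] [DecidableEq α]
    (f : P →* Perm α) (hinj : Function.Injective f) (hA : alternatingGroup α ≤ f.range) {n : ℕ}
    (hn : Nat.card α = n) (h2 : 2 ≤ n) :
    (Nat.card P = n.factorial / 2 ∧ Nonempty (P ≃* alternatingGroup (Fin n))) ∨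
      (Nat.card P = n.factorial ∧ Nonempty (P ≃* Perm (Fin n))) := by
  have hfc : Fintype.card α = n := by rwa [← Nat.card_eq_fintype_card]
  let e : α ≃ Fin n := Fintype.equivFinOfCardEq hfc
  let e0 : P ≃* f.range := MonoidHom.ofInjective hinj
  rcases alt_eq_or_top hA with h | h
  · left
    haveI : Nontrivial α := Fintype.one_lt_card_iff_nontrivial.mp (by omega)
    constructor
    · rw [Nat.card_congr e0.toEquiv, h, nat_card_alternatingGroup, hn]
    · have e1 : f.range ≃* alternatingGroup α := MulEquiv.subgroupCongr h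
      exact ⟨(e0.trans e1).trans e.altCongrHom⟩
  · right
    constructor
    · rw [Nat.card_congr e0.toEquiv, h, Subgroup.card_top, Nat.card_perm, hn]
    · have e1 : f.range ≃* Perm α := (MulEquiv.subgroupCongr h).trans Subgroup.topEquiv
      exact ⟨(e0.trans e1).trans e.permCongrHom⟩

/-- The equal-sign kernel. -/
abbrev Esign (n m : ℕ) : Subgroup (Perm (Fin n) × Perm (Fin m)) :=
  ((Perm.sign.comp (MonoidHom.fst (Perm (Fin n)) (Perm (Fin m)))) *
    (Perm.sign.comp (MonoidHom.snd (Perm (Fin n)) (Perm (Fin m))))).ker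

theorem card_Esign (n m : ℕ) (h2 : 2 ≤ n) :
    Nat.card (Esign n m) * 2 = n.factorial * m.factorial := by
  let f : Perm (Fin n) × Perm (Fin m) →* ℤˣ :=
    (Perm.sign.comp (MonoidHom.fst (Perm (Fin n)) (Perm (Fin m)))) *
      (Perm.sign.comp (MonoidHom.snd (Perm (Fin n)) (Perm (Fin m))))
  have hsurj : Function.Surjective f := by
    intro u
    haveI : Nontrivial (Fin n) := Fin.nontrivial_iff_two_le.mpr h2
    obtain ⟨σ, hσ⟩ := Equiv.Perm.sign_surjective (Fin n) u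
    refine ⟨(σ, 1), ?_⟩
    simp [f, hσ]
  have h1 := f.ker.card_mul_index
  rw [Subgroup.index_ker, MonoidHom.range_eq_top.mpr hsurj, Subgroup.card_top] at h1
  have h3 : Nat.card ℤˣ = 2 := by
    rw [Nat.card_eq_fintype_card]
    rfl
  rw [h3] at h1
  rw [h1, Nat.card_prod, Nat.card_perm, Nat.card_perm]
  simp

/-- Recognition of the equal-sign kernel. -/
theorem iso_Esign {H₀ : Type*} [Group H₀] [Finite H₀] {α β : Type*} [Fintype α] [DecidableEq α]
    [Fintype β] [DecidableEq β] (ψ₁ : H₀ →* Perm α) (ψ₂ : H₀ →* Perm β) {n m : ℕ}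
    (hn : Nat.card α = n) (hm : Nat.card β = m) (h2 : 2 ≤ n)
    (h1 : ∀ h, ψ₂ h = 1 → Perm.sign (ψ₁ h) = 1)
    (h2' : ∀ σ ∈ alternatingGroup α, ∃ h, ψ₂ h = 1 ∧ ψ₁ h = σ)
    (h3 : ∀ h, ψ₁ h = 1 → Perm.sign (ψ₂ h) = 1)
    (h4 : ∀ σ ∈ alternatingGroup β, ∃ h, ψ₁ h = 1 ∧ ψ₂ h = σ)
    (hinj : ∀ h, ψ₁ h = 1 → ψ₂ h = 1 → h = 1)
    (hcard : Nat.card H₀ * 2 = n.factorial * m.factorial) :
    Nonempty (H₀ ≃* Esign n m) := by
  have hs1 : ∀ h, Perm.sign (ψ₁ h) = 1 → Perm.sign (ψ₂ h) = 1 := by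
    intro h hh
    obtain ⟨h', hh1, hh2⟩ := h2' (ψ₁ h) (Equiv.Perm.mem_alternatingGroup.mpr hh)
    have h5 : ψ₁ (h'⁻¹ * h) = 1 := by
      rw [map_mul, map_inv, hh2]
      group
    have h6 := h3 _ h5
    rw [map_mul, map_inv, hh1] at h6
    simpa using h6
  have hs2 : ∀ h, Perm.sign (ψ₂ h) = 1 → Perm.sign (ψ₁ h) = 1 := by
    intro h hh
    obtain ⟨h', hh1, hh2⟩ := h4 (ψ₂ h) (Equiv.Perm.mem_alternatingGroup.mpr hh)
    have h5 : ψ₂ (h'⁻¹ * h) = 1 := by
      rw [map_mul, map_inv, hh2]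
      group
    have h6 := h1 _ h5
    rw [map_mul, map_inv, hh1] at h6
    simpa using h6
  have hseq : ∀ h, Perm.sign (ψ₁ h) = Perm.sign (ψ₂ h) := by
    intro h
    rcases Int.units_eq_one_or (Perm.sign (ψ₁ h)) with h7 | h7
    · rw [h7, hs1 h h7]
    · rcases Int.units_eq_one_or (Perm.sign (ψ₂ h)) with h8 | h8
      · have := hs2 h h8
        rw [h7] at this
        exact absurd this (by decide)
      · rw [h7, h8]
  have hnf : Fintype.card α = n := by rwa [← Nat.card_eq_fintype_card]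
  have hmf : Fintype.card β = m := by rwa [← Nat.card_eq_fintype_card]
  let e₁ : α ≃ Fin n := Fintype.equivFinOfCardEq hnf
  let e₂ : β ≃ Fin m := Fintype.equivFinOfCardEq hmf
  let Θ : H₀ →* Perm (Fin n) × Perm (Fin m) :=
    (e₁.permCongrHom.toMonoidHom.comp ψ₁).prod (e₂.permCongrHom.toMonoidHom.comp ψ₂)
  have hΘ : ∀ h, Θ h ∈ Esign n m := by
    intro h
    rw [MonoidHom.mem_ker]
    show Perm.sign (e₁.permCongrHom (ψ₁ h)) * Perm.sign (e₂.permCongrHom (ψ₂ h)) = 1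
    rw [show Perm.sign (e₁.permCongrHom (ψ₁ h)) = Perm.sign (ψ₁ h) from Equiv.Perm.sign_permCongr e₁ _,
      show Perm.sign (e₂.permCongrHom (ψ₂ h)) = Perm.sign (ψ₂ h) from Equiv.Perm.sign_permCongr e₂ _,
      hseq]
    exact Int.units_mul_self _
  let Θ' : H₀ →* Esign n m := Θ.codRestrict _ hΘ
  have hinj' : Function.Injective Θ' := by
    rw [injective_iff_map_eq_one]
    intro h hh
    have h5 : Θ h = 1 := congrArg Subtype.val hh
    have h6 : e₁.permCongrHom (ψ₁ h) = 1 := congrArg Prod.fst h5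
    have h7 : e₂.permCongrHom (ψ₂ h) = 1 := congrArg Prod.snd h5
    exact hinj h ((map_eq_one_iff _ e₁.permCongrHom.injective).mp h6)
      ((map_eq_one_iff _ e₂.permCongrHom.injective).mp h7)
  have hcard' : Nat.card H₀ = Nat.card (Esign n m) := by
    have := card_Esign n m h2
    omega
  have hbij : Function.Bijective Θ' :=
    (Nat.bijective_iff_injective_and_card _).mpr ⟨hinj', hcard'⟩
  exact ⟨MulEquiv.ofBijective Θ' hbij⟩

/-- Internal direct products. -/
theorem prod_iso {G : Type*} [Group G] [Finite G] {H Y K : Subgroup G} (hY : Y ≤ H) (hK : K ≤ H)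
    (hcomm : ∀ y ∈ Y, ∀ k ∈ K, y * k = k * y) (hinf : Y ⊓ K = ⊥)
    (hcard : Nat.card H = Nat.card Y * Nat.card K) : Nonempty (H ≃* Y × K) := by
  let φ : ↥Y × ↥K →* ↥H :=
    { toFun := fun p => ⟨(p.1 : G) * (p.2 : G), mul_mem (hY p.1.2) (hK p.2.2)⟩
      map_one' := by
        apply Subtype.ext
        simp
      map_mul' := by
        rintro ⟨⟨y₁, hy₁⟩, ⟨k₁, hk₁⟩⟩ ⟨⟨y₂, hy₂⟩, ⟨k₂, hk₂⟩⟩
        apply Subtype.ext
        show y₁ * y₂ * (k₁ * k₂) = y₁ * k₁ * (y₂ * k₂)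
        have := hcomm y₂ hy₂ k₁ hk₁
        calc y₁ * y₂ * (k₁ * k₂) = y₁ * (y₂ * k₁) * k₂ := by group
          _ = y₁ * (k₁ * y₂) * k₂ := by rw [this]
          _ = _ := by group }
  have hinj : Function.Injective φ := by
    rw [injective_iff_map_eq_one]
    rintro ⟨⟨y, hy⟩, ⟨k, hk⟩⟩ hp
    have h1 : y * k = 1 := congrArg Subtype.val hp
    have h2 : y = k⁻¹ := eq_inv_of_mul_eq_one_left h1
    have h3 : y ∈ Y ⊓ K := mem_inf.mpr ⟨hy, h2 ▸ inv_mem hk⟩
    rw [hinf, Subgroup.mem_bot] at h3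
    have h4 : k = 1 := by
      rw [h3, one_mul] at h1
      exact h1
    ext <;> simp [h3, h4]
  have hc : Nat.card (↥Y × ↥K) = Nat.card H := by
    rw [Nat.card_prod, hcard]
  have hbij : Function.Bijective φ := (Nat.bijective_iff_injective_and_card _).mpr ⟨hinj, hc⟩
  exact ⟨(MulEquiv.ofBijective φ hbij).symm⟩

/-- Extending a homomorphism along a normal complement. -/
theorem exists_extend {G P : Type*} [Group G] [Group P] {H Y T : Subgroup G} (τ : ↥T →* P)
    (hY : H ≤ normalizer (Y : Set G)) (hYH : Y ≤ H) (hTH : T ≤ H)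
    (hfac : ∀ h ∈ H, ∃ y ∈ Y, y⁻¹ * h ∈ T)
    (hker : ∀ t : ↥T, (t : G) ∈ Y → τ t = 1) :
    ∃ ψ : ↥H →* P, (∀ t : ↥T, ψ ⟨t, hTH t.2⟩ = τ t) ∧ ∀ y (hy : y ∈ Y), ψ ⟨y, hYH hy⟩ = 1 := by
  classical
  choose! yy hyy htt using hfac
  have hwell : ∀ {t t' : ↥T}, ((t : G) * (t' : G)⁻¹) ∈ Y → τ t = τ t' := by
    intro t t' h
    have := hker (t * t'⁻¹) h
    rw [map_mul, map_inv, mul_inv_eq_one] at this
    exact this
  let F : ↥H → P := fun h => τ ⟨(yy h)⁻¹ * h, htt h h.2⟩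
  have hF : ∀ (h : ↥H) (y : G) (hy : y ∈ Y) (t : ↥T), (h : G) = y * t → F h = τ t := by
    intro h y hy t he
    apply hwell
    show (yy h)⁻¹ * (h : G) * (t : G)⁻¹ ∈ Y
    rw [he]
    have e : (yy (y * t : G))⁻¹ * (y * (t : G)) * (t : G)⁻¹ = (yy (y * t : G))⁻¹ * y := by group
    rw [e]
    refine mul_mem (inv_mem (hyy _ ?_)) hy
    exact mul_mem (hYH hy) (hTH t.2)
  let ψ : ↥H →* P :=
    { toFun := F
      map_one' := by
        rw [hF 1 1 (one_mem _) 1 (by simp)]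
        exact map_one τ
      map_mul' := by
        intro h₁ h₂
        set t₁ : ↥T := ⟨(yy h₁)⁻¹ * h₁, htt h₁ h₁.2⟩ with ht₁
        set t₂ : ↥T := ⟨(yy h₂)⁻¹ * h₂, htt h₂ h₂.2⟩ with ht₂
        have hy₁ := hyy h₁ h₁.2
        have hy₂ := hyy h₂ h₂.2
        have hm : (t₁ : G) * yy h₂ * (t₁ : G)⁻¹ ∈ Y :=
          (mem_normalizer_iff.mp (hY (hTH t₁.2)) _).mp hy₂
        have := hF (h₁ * h₂) (yy h₁ * ((t₁ : G) * yy h₂ * (t₁ : G)⁻¹)) (mul_mem hy₁ hm) (t₁ * t₂) (by
          show (h₁ : G) * (h₂ : G) = _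
          simp only [ht₁, ht₂, Subgroup.coe_mul]
          group)
        rw [this, map_mul] }
  refine ⟨ψ, ?_, ?_⟩
  · intro t
    exact hF _ 1 (one_mem _) t (by simp)
  · intro y hy
    have := hF ⟨y, hYH hy⟩ y hy 1 (by simp)
    rw [map_one] at this
    exact this

end Cfsg.Agent.Lib.Perm.Knapp
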