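import Mathlib
import Cfsg.Agent.Lib.Components.FStar2
import Cfsg.Agent.Lib.PGroup.Timmesfeld
import Cfsg.Agent.Lib.Coprime.Three

/-!
# Residuals with respect to simple sections of a given order

A purely group-theoretic counting device replacing a Jordan-Hoelder count: if `T`, `T'` are
conjugate subgroups of `H`, `K ≤ T` with `K` normal in `H`, `H/K` large, `T/K` small, and `K'≤T'`
normal in `H`, then `H/K'` is large.
-/

set_option autoImplicit false
set_option linter.unusedSectionVars false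

namespace Cfsg.Agent.Lib.Perm.Knapp.Res

open Subgroup

variable {G : Type*} [Group G] [Finite G]

/-- `A/B` is a simple section of order `n`. -/
def Bad (n : ℕ) (A B : Subgroup G) : Prop :=
  B ≤ A ∧ A ≤ normalizer (B : Set G) ∧ Nat.card A = n * Nat.card B ∧
    ∀ C : Subgroup G, B ≤ C → C ≤ A → A ≤ normalizer (C : Set G) → C = B ∨ C = A

/-- No simple section of order `n` of `P` above `N`. -/
def Free (n : ℕ) (N P : Subgroup G) : Prop :=
  ∀ A B : Subgroup G, Bad n A B → N ≤ B → A ≤ P → False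

theorem conj_mem' {A : Subgroup G} {a x : G} (ha : a ∈ normalizer (A : Set G)) (hx : x ∈ A) :
    a * x * a⁻¹ ∈ A := (mem_normalizer_iff.mp ha x).mp hx

theorem mem_norm {V : Subgroup G} {x : G} (h : ∀ v ∈ V, x * v * x⁻¹ ∈ V) :
    x ∈ normalizer (V : Set G) := Cfsg.Agent.Lib.Coprime.Three.mem_normalizer_of_conj_mem h

theorem card_sup_inf {A N : Subgroup G} (h : A ≤ normalizer (N : Set G)) :
    Nat.card ↥(A ⊔ N) * Nat.card ↥(A ⊓ N) = Nat.card A * Nat.card N :=
  Cfsg.Agent.Lib.PGroup.Timmesfeld.card_sup_mul_card_inf_of_le_normalizer A N h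

/-- The sup with a normal subgroup. -/
theorem le_norm_sup {A B N : Subgroup G} (hBA : B ≤ A) (hA : A ≤ normalizer (B : Set G))
    (hN : A ≤ normalizer (N : Set G)) : A ⊔ N ≤ normalizer ((B ⊔ N : Subgroup G) : Set G) := by
  refine sup_le ?_ ?_
  · intro a ha
    apply mem_norm
    intro v hv
    obtain ⟨b, hb, m, hm, rfl⟩ := Cfsg.Agent.Lib.Components.FStar2.mem_sup_of_le_normalizer
      (hBA.trans hN) hv
    have e : a * (b * m) * a⁻¹ = (a * b * a⁻¹) * (a * m * a⁻¹) := by group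
    rw [e]
    exact mul_mem ((le_sup_left : B ≤ B ⊔ N) (conj_mem' (hA ha) hb))
      ((le_sup_right : N ≤ B ⊔ N) (conj_mem' (hN ha) hm))
  · intro n hn
    apply mem_norm
    intro v hv
    obtain ⟨b, hb, m, hm, rfl⟩ := Cfsg.Agent.Lib.Components.FStar2.mem_sup_of_le_normalizer
      (hBA.trans hN) hv
    have e : n * (b * m) * n⁻¹ = n * (b * n⁻¹ * b⁻¹) * b * (n * m * n⁻¹) := by group
    rw [e]
    have h1 : b * n⁻¹ * b⁻¹ ∈ N := conj_mem' (hN (hBA hb)) (inv_mem hn)
    refine mul_mem (mul_mem ((le_sup_right : N ≤ B ⊔ N) (mul_mem hn h1))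
      ((le_sup_left : B ≤ B ⊔ N) hb)) ((le_sup_right : N ≤ B ⊔ N) ?_)
    exact mul_mem (mul_mem hn hm) (inv_mem hn)

/-- Shift a simple section along a normal subgroup which meets it trivially. -/
theorem Bad.shift {n : ℕ} {A B N : Subgroup G} (hAB : Bad n A B)
    (hAN : A ≤ normalizer (N : Set G)) (hmeet : A ⊓ N ≤ B) : Bad n (A ⊔ N) (B ⊔ N) := by
  obtain ⟨hBA, hnorm, hcard, hmax⟩ := hAB
  have hinf : A ⊓ N = B ⊓ N :=
    le_antisymm (le_inf hmeet inf_le_right) (inf_le_inf_right _ hBA)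
  refine ⟨sup_le_sup_right hBA N, le_norm_sup hBA hnorm hAN, ?_, ?_⟩
  · have h1 := card_sup_inf hAN
    have h2 := card_sup_inf (hBA.trans hAN)
    rw [hinf] at h1
    have hpos : 0 < Nat.card ↥(B ⊓ N) := Nat.card_pos
    apply Nat.eq_of_mul_eq_mul_right hpos
    rw [h1, hcard, mul_assoc, mul_assoc n (Nat.card ↥(B ⊔ N)), h2]
  · intro C hBC hCA hCn
    have hN_C : N ≤ C := le_sup_right.trans hBC
    have hB_C : B ≤ C := le_sup_left.trans hBC
    have hCAn : A ≤ normalizer ((C ⊓ A : Subgroup G) : Set G) := by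
      intro a ha
      apply mem_norm
      intro v hv
      obtain ⟨hv1, hv2⟩ := mem_inf.mp hv
      exact mem_inf.mpr ⟨conj_mem' (hCn ((le_sup_left : A ≤ A ⊔ N) ha)) hv1,
        mul_mem (mul_mem ha hv2) (inv_mem ha)⟩
    rcases hmax (C ⊓ A) (le_inf hB_C hBA) inf_le_right hCAn with h | h
    · left
      refine le_antisymm ?_ hBC
      intro c hc
      obtain ⟨a, ha, m, hm, rfl⟩ := Cfsg.Agent.Lib.Components.FStar2.mem_sup_of_le_normalizer
        hAN (hCA hc)
      have haC : a ∈ C := by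
        have : a = (a * m) * m⁻¹ := by group
        rw [this]
        exact mul_mem hc (inv_mem (hN_C hm))
      have : a ∈ B := by
        rw [← h]
        exact mem_inf.mpr ⟨haC, ha⟩
      exact mul_mem ((le_sup_left : B ≤ B ⊔ N) this) ((le_sup_right : N ≤ B ⊔ N) hm)
    · right
      refine le_antisymm hCA (sup_le ?_ hN_C)
      exact (by rw [← h]; exact inf_le_left : A ≤ C)

/-- Restrict a simple section to a normal subgroup covering it. -/
theorem Bad.restrict {n : ℕ} {A B N : Subgroup G} (hAB : Bad n A B)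
    (hAN : A ≤ normalizer (N : Set G)) (hcov : (A ⊓ N) ⊔ B = A) : Bad n (A ⊓ N) (B ⊓ N) := by
  obtain ⟨hBA, hnorm, hcard, hmax⟩ := hAB
  have hAiN : A ⊓ N ≤ normalizer (B : Set G) := inf_le_left.trans hnorm
  have hinfB : (A ⊓ N) ⊓ B = B ⊓ N := by
    apply le_antisymm
    · intro x hx
      obtain ⟨h1, h2⟩ := mem_inf.mp hx
      exact mem_inf.mpr ⟨h2, (mem_inf.mp h1).2⟩
    · intro x hx
      obtain ⟨h1, h2⟩ := mem_inf.mp hx
      exact mem_inf.mpr ⟨mem_inf.mpr ⟨hBA h1, h2⟩, h1⟩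
  refine ⟨inf_le_inf_right _ hBA, ?_, ?_, ?_⟩
  · intro x hx
    obtain ⟨hx1, hx2⟩ := mem_inf.mp hx
    apply mem_norm
    intro v hv
    obtain ⟨hv1, hv2⟩ := mem_inf.mp hv
    exact mem_inf.mpr ⟨conj_mem' (hnorm hx1) hv1, conj_mem' (hAN hx1) hv2⟩
  · have h1 := card_sup_inf hAiN
    rw [hinfB, hcov] at h1
    have hpos : 0 < Nat.card B := Nat.card_pos
    apply Nat.eq_of_mul_eq_mul_right hpos
    rw [← h1, hcard]
    ring
  · intro C hBC hCA hCn
    have hCB : C ⊔ B ≤ A := sup_le (hCA.trans inf_le_left) hBA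
    have hCnA : A ≤ normalizer ((C ⊔ B : Subgroup G) : Set G) := by
      -- `A = (A ⊓ N) B`
      intro a ha
      have ha' : a ∈ (A ⊓ N) ⊔ B := by rw [hcov]; exact ha
      obtain ⟨u, hu, b, hb, rfl⟩ := Cfsg.Agent.Lib.Components.FStar2.mem_sup_of_le_normalizer
        hAiN ha'
      apply mem_norm
      intro v hv
      obtain ⟨c, hc, b', hb', rfl⟩ := Cfsg.Agent.Lib.Components.FStar2.mem_sup_of_le_normalizer
        ((hCA.trans hAiN)) hv
      have hcA : c ∈ A := (mem_inf.mp (hCA hc)).1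
      -- `b c b⁻¹ ∈ c B`
      have hbc : c⁻¹ * (b * c * b⁻¹) ∈ B := by
        have : c⁻¹ * (b * c * b⁻¹) = (c⁻¹ * b * c) * b⁻¹ := by group
        rw [this]
        refine mul_mem ?_ (inv_mem hb)
        have := conj_mem' (hnorm (inv_mem hcA)) hb
        simpa using this
      have e : u * b * (c * b') * (u * b)⁻¹ =
          (u * c * u⁻¹) * (u * (c⁻¹ * (b * c * b⁻¹)) * u⁻¹) * (u * (b * b' * b⁻¹) * u⁻¹) := by group
      rw [e]
      refine mul_mem (mul_mem ((le_sup_left : C ≤ C ⊔ B) (conj_mem' (hCn hu) hc))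
        ((le_sup_right : B ≤ C ⊔ B) (conj_mem' (hAiN hu) hbc)))
        ((le_sup_right : B ≤ C ⊔ B) (conj_mem' (hAiN hu) ?_))
      exact conj_mem' (hnorm (hBA hb)) hb'
    have hCBi : (C ⊔ B) ⊓ (A ⊓ N) = C := by
      apply le_antisymm
      · intro x hx
        obtain ⟨h1, h2⟩ := mem_inf.mp hx
        obtain ⟨c, hc, b, hb, rfl⟩ := Cfsg.Agent.Lib.Components.FStar2.mem_sup_of_le_normalizer
          (hCA.trans hAiN) h1
        have hbN : b ∈ N := by
          have : b = c⁻¹ * (c * b) := by group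
          rw [this]
          exact mul_mem (inv_mem (mem_inf.mp (hCA hc)).2) (mem_inf.mp h2).2
        exact mul_mem hc (hBC (mem_inf.mpr ⟨hb, hbN⟩))
      · exact le_inf le_sup_left hCA
    rcases hmax (C ⊔ B) le_sup_right hCB hCnA with h | h
    · left
      apply le_antisymm
      · rw [← hCBi, h]
        intro x hx
        obtain ⟨h1, h2⟩ := mem_inf.mp hx
        exact mem_inf.mpr ⟨h1, (mem_inf.mp h2).2⟩
      · exact hBC
    · right
      rw [← hCBi, h]
      simp

/-- Dichotomy. -/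
theorem Bad.split {n : ℕ} {A B N : Subgroup G} (hAB : Bad n A B)
    (hAN : A ≤ normalizer (N : Set G)) : A ⊓ N ≤ B ∨ (A ⊓ N) ⊔ B = A := by
  obtain ⟨hBA, hnorm, hcard, hmax⟩ := id hAB
  have h1 : A ≤ normalizer (((A ⊓ N) ⊔ B : Subgroup G) : Set G) := by
    intro a ha
    apply mem_norm
    intro v hv
    obtain ⟨c, hc, b, hb, rfl⟩ := Cfsg.Agent.Lib.Components.FStar2.mem_sup_of_le_normalizer
      (inf_le_left.trans hnorm) hv
    have e : a * (c * b) * a⁻¹ = (a * c * a⁻¹) * (a * b * a⁻¹) := by group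
    rw [e]
    obtain ⟨hc1, hc2⟩ := mem_inf.mp hc
    refine mul_mem ((le_sup_left : A ⊓ N ≤ (A ⊓ N) ⊔ B) (mem_inf.mpr ⟨?_, conj_mem' (hAN ha) hc2⟩))
      ((le_sup_right : B ≤ (A ⊓ N) ⊔ B) (conj_mem' (hnorm ha) hb))
    exact mul_mem (mul_mem ha hc1) (inv_mem ha)
  rcases hmax _ le_sup_right (sup_le inf_le_left hBA) h1 with h | h
  · left
    rw [← h]
    exact le_sup_left
  · right
    exact h

theorem Free.mono {n : ℕ} {N N' P : Subgroup G} (h : Free n N P) (hN : N ≤ N') : Free n N' P :=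
  fun A B hB h1 h2 => h A B hB (hN.trans h1) h2

/-- Extension closure. -/
theorem Free.trans {n : ℕ} {M N P : Subgroup G} (hMN : M ≤ N) (hNP' : N ≤ P)
    (hNP : P ≤ normalizer (N : Set G)) (h1 : Free n M N) (h2 : Free n N P) : Free n M P := by
  intro A B hB hM hA
  rcases hB.split (hA.trans hNP) with h | h
  · exact h2 _ _ (hB.shift (hA.trans hNP) h) le_sup_right (sup_le hA hNP')
  · exact h1 _ _ (hB.restrict (hA.trans hNP) h) (le_inf hM hMN) inf_le_right

/-- Second isomorphism form: `P/Q` free implies `N/(N ⊓ Q)` free. -/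
theorem Free.diamond {n : ℕ} {N Q P : Subgroup G} (hN : N ≤ P) (hQ' : Q ≤ P)
    (hQ : P ≤ normalizer (Q : Set G)) (h : Free n Q P) : Free n (N ⊓ Q) N := by
  intro A B hB hM hA
  refine h _ _ (hB.shift ((hA.trans hN).trans hQ) ?_) le_sup_right (sup_le (hA.trans hN) hQ')
  exact (inf_le_inf_right _ hA).trans hM

theorem Free.inf {n : ℕ} {N₁ N₂ P : Subgroup G} (h₁ : N₁ ≤ P) (h₂ : N₂ ≤ P)
    (hn₁ : P ≤ normalizer (N₁ : Set G)) (hn₂ : P ≤ normalizer (N₂ : Set G))
    (H₁ : Free n N₁ P) (H₂ : Free n N₂ P) : Free n (N₁ ⊓ N₂) P :=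
  Free.trans inf_le_left h₁ hn₁ (Free.diamond h₁ h₂ hn₂ H₂) H₁

theorem free_self {n : ℕ} (hn : 2 ≤ n) (P : Subgroup G) : Free n P P := by
  intro A B hB h1 h2
  obtain ⟨hBA, -, hc, -⟩ := hB
  have hAB : A = B := le_antisymm (h2.trans h1) hBA
  subst hAB
  have hpos : 0 < Nat.card A := Nat.card_pos
  nlinarith

/-- The residual. -/
def IsRes (n : ℕ) (R P : Subgroup G) : Prop :=
  R ≤ P ∧ P ≤ normalizer (R : Set G) ∧ Free n R P ∧
    ∀ N : Subgroup G, N ≤ P → P ≤ normalizer (N : Set G) → Free n N P → R ≤ N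

theorem exists_isRes {n : ℕ} (hn : 2 ≤ n) (P : Subgroup G) : ∃ R, IsRes n R P := by
  classical
  let S : Set (Subgroup G) := {N | N ≤ P ∧ P ≤ normalizer (N : Set G) ∧ Free n N P}
  have hSne : S.Nonempty := ⟨P, le_rfl, le_normalizer, free_self hn P⟩
  have hfin : S.Finite := Set.toFinite S
  obtain ⟨R, hR, hmin⟩ := Set.exists_min_image S (fun N => Nat.card N) hfin hSne
  refine ⟨R, hR.1, hR.2.1, hR.2.2, ?_⟩
  intro N hN hNn hNf
  have hinf : R ⊓ N ∈ S := by
    refine ⟨inf_le_left.trans hR.1, ?_, Free.inf hR.1 hN hR.2.1 hNn hR.2.2 hNf⟩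
    intro x hx
    apply mem_norm
    intro v hv
    exact mem_inf.mpr ⟨conj_mem' (hR.2.1 hx) (mem_inf.mp hv).1, conj_mem' (hNn hx) (mem_inf.mp hv).2⟩
  have h1 := hmin _ hinf
  have h2 : R ⊓ N = R := Subgroup.eq_of_le_of_card_ge inf_le_left h1
  exact inf_eq_left.mp h2

theorem IsRes.unique {n : ℕ} {R R' P : Subgroup G} (h : IsRes n R P) (h' : IsRes n R' P) : R = R' :=
  le_antisymm (h.2.2.2 _ h'.1 h'.2.1 h'.2.2.1) (h'.2.2.2 _ h.1 h.2.1 h.2.2.1)

/-! ### Conjugation -/

theorem Bad.map {n : ℕ} {A B : Subgroup G} (e : G ≃* G) (h : Bad n A B) :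
    Bad n (A.map e.toMonoidHom) (B.map e.toMonoidHom) := by
  obtain ⟨hBA, hnorm, hc, hmax⟩ := h
  have hnm : ∀ {X Y : Subgroup G}, X ≤ normalizer (Y : Set G) →
      X.map e.toMonoidHom ≤ normalizer ((Y.map e.toMonoidHom : Subgroup G) : Set G) := by
    intro X Y hXY
    rintro _ ⟨x, hx, rfl⟩
    apply mem_norm
    rintro _ ⟨y, hy, rfl⟩
    refine ⟨x * y * x⁻¹, conj_mem' (hXY hx) hy, ?_⟩
    simp
  refine ⟨map_mono hBA, hnm hnorm, ?_, ?_⟩
  · have h1 : ∀ X : Subgroup G, Nat.card ↥(X.map e.toMonoidHom) = Nat.card X := fun X =>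
      Nat.card_congr (X.equivMapOfInjective e.toMonoidHom e.injective).toEquiv.symm
    rw [h1, h1, hc]
  · intro C hBC hCA hCn
    have hmm : ∀ X : Subgroup G,
        (X.map e.symm.toMonoidHom).map e.toMonoidHom = X := by
      intro X
      ext x
      simp
    have hmm' : ∀ X : Subgroup G,
        (X.map e.toMonoidHom).map e.symm.toMonoidHom = X := by
      intro X
      ext x
      simp
    have hnm' : ∀ {X Y : Subgroup G}, X ≤ normalizer (Y : Set G) →
        X.map e.symm.toMonoidHom ≤ normalizer ((Y.map e.symm.toMonoidHom : Subgroup G) : Set G) := by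
      intro X Y hXY
      rintro _ ⟨x, hx, rfl⟩
      apply mem_norm
      rintro _ ⟨y, hy, rfl⟩
      refine ⟨x * y * x⁻¹, conj_mem' (hXY hx) hy, ?_⟩
      simp
    have h1 : B ≤ C.map e.symm.toMonoidHom := by
      have := map_mono (f := e.symm.toMonoidHom) hBC
      rwa [hmm'] at this
    have h2 : C.map e.symm.toMonoidHom ≤ A := by
      have := map_mono (f := e.symm.toMonoidHom) hCA
      rwa [hmm'] at this
    have h3 : A ≤ normalizer ((C.map e.symm.toMonoidHom : Subgroup G) : Set G) := by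
      have := hnm' hCn
      rwa [hmm'] at this
    rcases hmax _ h1 h2 h3 with h | h
    · left
      rw [← h, hmm]
    · right
      rw [← h, hmm]

theorem Free.map {n : ℕ} {N P : Subgroup G} (e : G ≃* G) (h : Free n N P) :
    Free n (N.map e.toMonoidHom) (P.map e.toMonoidHom) := by
  intro A B hB h1 h2
  have hmm' : ∀ X : Subgroup G,
      (X.map e.toMonoidHom).map e.symm.toMonoidHom = X := by
    intro X
    ext x
    simp
  have hB' := hB.map e.symm
  refine h _ _ hB' ?_ ?_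
  · have := map_mono (f := e.symm.toMonoidHom) h1
    rwa [hmm'] at this
  · have := map_mono (f := e.symm.toMonoidHom) h2
    rwa [hmm'] at this

theorem IsRes.map {n : ℕ} {R P : Subgroup G} (e : G ≃* G) (h : IsRes n R P) :
    IsRes n (R.map e.toMonoidHom) (P.map e.toMonoidHom) := by
  obtain ⟨h1, h2, h3, h4⟩ := h
  have hmm' : ∀ X : Subgroup G,
      (X.map e.toMonoidHom).map e.symm.toMonoidHom = X := by
    intro X
    ext x
    simp
  have hmm : ∀ X : Subgroup G,
      (X.map e.symm.toMonoidHom).map e.toMonoidHom = X := by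
    intro X
    ext x
    simp
  have hnm : ∀ (e : G ≃* G) {X Y : Subgroup G}, X ≤ normalizer (Y : Set G) →
      X.map e.toMonoidHom ≤ normalizer ((Y.map e.toMonoidHom : Subgroup G) : Set G) := by
    intro e X Y hXY
    rintro _ ⟨x, hx, rfl⟩
    apply mem_norm
    rintro _ ⟨y, hy, rfl⟩
    refine ⟨x * y * x⁻¹, conj_mem' (hXY hx) hy, ?_⟩
    simp
  refine ⟨map_mono h1, hnm e h2, h3.map e, ?_⟩
  intro N hN hNn hNf
  have h5 : R ≤ N.map e.symm.toMonoidHom := by
    refine h4 _ ?_ ?_ ?_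
    · have := map_mono (f := e.symm.toMonoidHom) hN
      rwa [hmm'] at this
    · have := hnm e.symm hNn
      rwa [hmm'] at this
    · have := Free.map e.symm hNf
      rwa [hmm'] at this
  have := map_mono (f := e.toMonoidHom) h5
  rwa [hmm] at this

/-- The residual of a normal subgroup is normal. -/
theorem IsRes.normal_of_norm {n : ℕ} {R P Q : Subgroup G} (h : IsRes n R P)
    (hQ : Q ≤ normalizer (P : Set G)) : Q ≤ normalizer (R : Set G) := by
  intro q hq
  have hP : P.map (MulAut.conj q).toMonoidHom = P := by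
    apply Subgroup.eq_of_le_of_card_ge
    · rintro _ ⟨v, hv, rfl⟩
      simpa using conj_mem' (hQ hq) hv
    · exact le_of_eq (Nat.card_congr (P.equivMapOfInjective _ (MulAut.conj q).injective).toEquiv.symm).symm
  have h1 := h.map (MulAut.conj q)
  rw [hP] at h1
  have h2 := h1.unique h
  apply mem_norm
  intro v hv
  have : q * v * q⁻¹ ∈ R.map (MulAut.conj q).toMonoidHom := ⟨v, hv, by simp⟩
  rwa [h2] at this

/-- **Main count.** -/
theorem main_count {n : ℕ} (hn : 2 ≤ n) {H K K' T T' A₀ : Subgroup G} (g : G)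
    (hKT : K ≤ T) (hTH : T ≤ H) (hKH : H ≤ normalizer (K : Set G))
    (hK'T' : K' ≤ T') (hT'H : T' ≤ H) (hK'H : H ≤ normalizer (K' : Set G))
    (hconj : T'.map (MulAut.conj g).toMonoidHom = T)
    (hsmall : Nat.card T < n * Nat.card K)
    (hBad : Bad n A₀ K) (hA₀ : A₀ ≤ H)
    (hdich : ∀ N : Subgroup G, N ≤ H → H ≤ normalizer (N : Set G) → N ≤ K ∨ A₀ ≤ N ⊔ K)
    (hsmall' : Nat.card H < n * Nat.card K') : False := by
  obtain ⟨R, hR⟩ := exists_isRes hn H
  obtain ⟨RK, hRK⟩ := exists_isRes hn K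
  obtain ⟨RT, hRT⟩ := exists_isRes hn T
  obtain ⟨RT', hRT'⟩ := exists_isRes hn T'
  have hKH' : K ≤ H := hKT.trans hTH
  have hK'H' : K' ≤ H := hK'T'.trans hT'H
  -- `K/..` and `K'`
  have hfreeKT : Free n K T := by
    intro A B hB h1 h2
    obtain ⟨hBA, -, hc, -⟩ := hB
    have h3 : Nat.card K ≤ Nat.card B := Subgroup.card_le_of_le h1
    have h4 : Nat.card A ≤ Nat.card T := Subgroup.card_le_of_le h2
    have : n * Nat.card K ≤ Nat.card T := by
      calc n * Nat.card K ≤ n * Nat.card B := Nat.mul_le_mul_left _ h3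
        _ = Nat.card A := hc.symm
        _ ≤ _ := h4
    omega
  have hfreeK'H : Free n K' H := by
    intro A B hB h1 h2
    obtain ⟨hBA, -, hc, -⟩ := hB
    have h3 : Nat.card K' ≤ Nat.card B := Subgroup.card_le_of_le h1
    have h4 : Nat.card A ≤ Nat.card H := Subgroup.card_le_of_le h2
    have : n * Nat.card K' ≤ Nat.card H := by
      calc n * Nat.card K' ≤ n * Nat.card B := Nat.mul_le_mul_left _ h3
        _ = Nat.card A := hc.symm
        _ ≤ _ := h4
    omega
  have hKTn : T ≤ normalizer (K : Set G) := hTH.trans hKH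
  -- `RT ≤ RK`
  have hRKT : T ≤ normalizer (RK : Set G) := hRK.normal_of_norm hKTn
  have h1 : RT ≤ RK := hRT.2.2.2 RK (hRK.1.trans hKT) hRKT
    (Free.trans hRK.1 hKT hKTn hRK.2.2.1 hfreeKT)
  -- `RK ≤ R ⊓ K`
  have h2 : RK ≤ R ⊓ K := by
    refine hRK.2.2.2 _ inf_le_right ?_ ?_
    · intro x hx
      apply mem_norm
      intro v hv
      exact mem_inf.mpr ⟨conj_mem' (hR.2.1 (hKH' hx)) (mem_inf.mp hv).1,
        conj_mem' (hKH (hKH' hx)) (mem_inf.mp hv).2⟩
    · rw [inf_comm]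
      exact Free.diamond hKH' hR.1 hR.2.1 hR.2.2.1
  -- `R` covers `A₀/K`
  have h3 : A₀ ≤ R ⊔ K := by
    rcases hdich R hR.1 hR.2.1 with h | h
    · exfalso
      exact (hR.2.2.1.mono h) _ _ hBad le_rfl hA₀
    · exact h
  have h4 : n * Nat.card ↥(R ⊓ K) ≤ Nat.card R := by
    have hc1 := card_sup_inf (hR.1.trans hKH)
    have hc2 : n * Nat.card K ≤ Nat.card ↥(R ⊔ K) := by
      rw [← hBad.2.2.1]
      exact Subgroup.card_le_of_le h3
    have hposK : 0 < Nat.card K := Nat.card_pos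
    have : n * Nat.card ↥(R ⊓ K) * Nat.card K ≤ Nat.card R * Nat.card K := by
      rw [← hc1]
      calc n * Nat.card ↥(R ⊓ K) * Nat.card K = (n * Nat.card K) * Nat.card ↥(R ⊓ K) := by ring
        _ ≤ _ := Nat.mul_le_mul_right _ hc2
    exact Nat.le_of_mul_le_mul_right this hposK
  -- `R ≤ RT'`
  have hRK' : R ≤ K' := hR.2.2.2 K' hK'H' hK'H hfreeK'H
  have hRT'' : R ≤ T' := hRK'.trans hK'T'
  have h5 : R ≤ RT' := by
    obtain ⟨RR, hRR⟩ := exists_isRes hn R
    have h6 : RR ≤ R ⊓ RT' := by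
      refine hRR.2.2.2 _ inf_le_left ?_ ?_
      · intro x hx
        apply mem_norm
        intro v hv
        exact mem_inf.mpr ⟨conj_mem' (hR.2.1 (hR.1 hx)) (mem_inf.mp hv).1,
          conj_mem' (hRT'.2.1 (hRT'' hx)) (mem_inf.mp hv).2⟩
      · have := Free.diamond (N := R) hRT'' hRT'.1 hRT'.2.1 hRT'.2.2.1
        exact this
    have h7 : H ≤ normalizer (RR : Set G) := hRR.normal_of_norm hR.2.1
    have h8 : R ≤ RR := hR.2.2.2 RR (hRR.1.trans hR.1) h7
      (Free.trans hRR.1 hR.1 hR.2.1 hRR.2.2.1 hR.2.2.1)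
    exact h8.trans (h6.trans inf_le_right)
  -- numbers
  have h9 : RT = RT'.map (MulAut.conj g).toMonoidHom := by
    have := hRT'.map (MulAut.conj g)
    rw [hconj] at this
    exact hRT.unique this
  have h10 : Nat.card RT = Nat.card RT' := by
    rw [h9]
    exact Nat.card_congr (RT'.equivMapOfInjective _ (MulAut.conj g).injective).toEquiv.symm
  have h11 : Nat.card RT ≤ Nat.card ↥(R ⊓ K) := Subgroup.card_le_of_le (h1.trans h2)
  have h12 : Nat.card R ≤ Nat.card RT' := Subgroup.card_le_of_le h5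
  have hpos : 0 < Nat.card RT := Nat.card_pos
  have : n * Nat.card RT ≤ Nat.card RT := by
    calc n * Nat.card RT ≤ n * Nat.card ↥(R ⊓ K) := Nat.mul_le_mul_left _ h11
      _ ≤ Nat.card R := h4
      _ ≤ Nat.card RT' := h12
      _ = Nat.card RT := h10.symm
  nlinarith

end Cfsg.Agent.Lib.Perm.Knapp.Res
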